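import Mathlib

/-! Nilpotent shifts with prescribed block sizes. -/

set_option autoImplicit false

open Polynomial
open scoped DirectSum

namespace Cfsg.Lib.Jordan

variable {F : Type*} [Field F]

abbrev Idx {d : ℕ} (k : Fin d → ℕ) := (j : Fin d) × Fin (k j)

/-- The shift on blocks of sizes `k j`. -/
def shift (F : Type*) [Field F] {d : ℕ} (k : Fin d → ℕ) : Module.End F (Idx k → F) where
  toFun v b := if h : b.2.val + 1 < k b.1 then v ⟨b.1, ⟨b.2.val + 1, h⟩⟩ else 0
  map_add' v w := by ext b; by_cases h : b.2.val + 1 < k b.1 <;> simp [h]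
  map_smul' c v := by ext b; by_cases h : b.2.val + 1 < k b.1 <;> simp [h]

theorem shift_pow {d : ℕ} (k : Fin d → ℕ) (r : ℕ) (v : Idx k → F) (b : Idx k) :
    (shift F k ^ r) v b = if h : b.2.val + r < k b.1 then v ⟨b.1, ⟨b.2.val + r, h⟩⟩ else 0 := by
  induction r generalizing v with
  | zero => simp
  | succ r ih =>
    rw [pow_succ, Module.End.mul_apply, ih]
    by_cases h : b.2.val + (r + 1) < k b.1
    · rw [dif_pos h, dif_pos (by omega)]
      simp [shift, add_assoc, h]
    · rw [dif_neg h]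
      by_cases h' : b.2.val + r < k b.1
      · rw [dif_pos h']
        simp [shift, show ¬ b.2.val + r + 1 < k b.1 by omega]
      · rw [dif_neg h']

theorem finrank_ker_shift {d : ℕ} (k : Fin d → ℕ) (r : ℕ) :
    Module.finrank F (LinearMap.ker (shift F k ^ r)) = ∑ j, min r (k j) := by
  classical
  have hmem : ∀ v : Idx k → F, v ∈ LinearMap.ker (shift F k ^ r) ↔ ∀ b : Idx k, r ≤ b.2.val → v b = 0 := by
    intro v
    rw [LinearMap.mem_ker, funext_iff]
    constructor
    · intro h b hb
      have h' := h ⟨b.1, ⟨b.2.val - r, by omega⟩⟩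
      rw [shift_pow, dif_pos (show b.2.val - r + r < k b.1 by omega), Pi.zero_apply] at h'
      convert h' using 2
      refine Sigma.ext rfl (heq_of_eq (Fin.ext ?_))
      simp; omega
    · intro h b
      rw [shift_pow]
      split_ifs with hb
      · exact h _ (by simp)
      · rfl
  let e : LinearMap.ker (shift F k ^ r) ≃ₗ[F] ((j : Fin d) × Fin (min r (k j)) → F) :=
    { toFun := fun v b => v.1 ⟨b.1, ⟨b.2.val, lt_of_lt_of_le b.2.isLt (min_le_right _ _)⟩⟩
      map_add' := fun v w => rfl
      map_smul' := fun c v => rfl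
      invFun := fun w => ⟨fun b => if h : b.2.val < r then w ⟨b.1, ⟨b.2.val, lt_min h b.2.isLt⟩⟩ else 0,
        (hmem _).2 fun b hb => dif_neg (by omega)⟩
      left_inv := fun v => by
        ext b
        by_cases h : b.2.val < r
        · simp [h]
        · simp [h, (hmem v.1).1 v.2 b (by omega)]
      right_inv := fun w => by
        ext b
        have : b.2.val < r := lt_of_lt_of_le b.2.isLt (min_le_left _ _)
        simp [this] }
  rw [e.finrank_eq, Module.finrank_pi, Fintype.card_sigma]
  simp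

theorem exists_shift {V : Type*} [AddCommGroup V] [Module F V] [FiniteDimensional F V] (T : Module.End F V)
    {N : ℕ} (hT : T ^ N = 0) :
    ∃ (d : ℕ) (k : Fin d → ℕ) (E : V ≃ₗ[F] (Idx k → F)), ∀ v, E (T v) = shift F k (E v) := by
  classical
  have htor : Module.IsTorsion' (Module.AEval' T) (Submonoid.powers (X : F[X])) := by
    refine (Submodule.isTorsion'_powers_iff (X : F[X])).mpr fun x => ⟨N, ?_⟩
    apply (Module.AEval'.of T).symm.injective
    rw [Module.AEval.of_symm_smul, map_zero, map_pow, aeval_X, hT, zero_smul]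
  obtain ⟨d, k, ⟨E⟩⟩ := Module.torsion_by_prime_power_decomposition (p := (X : F[X])) irreducible_X htor
  let r : V → Fin d → F[X] := fun v j => (E (Module.AEval'.of T v) j).out
  have hr : ∀ v j, (Submodule.Quotient.mk (r v j) : F[X] ⧸ F[X] ∙ (X : F[X]) ^ k j) = E (Module.AEval'.of T v) j :=
    fun v j => Quotient.out_eq _
  let Φ : V → Idx k → F := fun v b => (r v b.1).coeff (k b.1 - 1 - b.2.val)
  have key : ∀ v j (h : F[X]),
      (Submodule.Quotient.mk h : F[X] ⧸ F[X] ∙ (X : F[X]) ^ k j) = E (Module.AEval'.of T v) j →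
      ∀ i : Fin (k j), Φ v ⟨j, i⟩ = h.coeff (k j - 1 - i.val) := by
    intro v j h hh i
    have hd : (X : F[X]) ^ k j ∣ r v j - h :=
      Ideal.mem_span_singleton.mp ((Submodule.Quotient.eq _).mp ((hr v j).trans hh.symm))
    have := (X_pow_dvd_iff.mp hd) (k j - 1 - i.val) (by omega)
    rwa [coeff_sub, sub_eq_zero] at this
  have hadd : ∀ v w, Φ (v + w) = Φ v + Φ w := fun v w => by
    ext ⟨j, i⟩
    rw [key (v + w) j (r v j + r w j) (by rw [Submodule.Quotient.mk_add, hr, hr, map_add, map_add]; rfl) i,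
      coeff_add]
    rfl
  have hsmul : ∀ (c : F) v, Φ (c • v) = c • Φ v := fun c v => by
    ext ⟨j, i⟩
    rw [key (c • v) j (C c * r v j) (by
      rw [← smul_eq_mul, Submodule.Quotient.mk_smul, hr, map_smul,
        show c • Module.AEval'.of T v = (C c : F[X]) • Module.AEval'.of T v from
          (algebraMap_smul F[X] c (Module.AEval'.of T v)).symm, map_smul]
      rfl) i, coeff_C_mul]
    rfl
  let L : V →ₗ[F] (Idx k → F) := { toFun := Φ, map_add' := hadd, map_smul' := hsmul }
  have hinj : Function.Injective L := by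
    rw [injective_iff_map_eq_zero]
    intro v hv
    have h0 : E (Module.AEval'.of T v) = 0 := DFinsupp.ext fun j => by
      rw [← hr]
      show (Submodule.Quotient.mk (r v j) : F[X] ⧸ F[X] ∙ (X : F[X]) ^ k j) = 0
      rw [Submodule.Quotient.mk_eq_zero, Ideal.mem_span_singleton, X_pow_dvd_iff]
      intro i hi
      have := congrFun hv ⟨j, ⟨k j - 1 - i, by omega⟩⟩
      simpa [L, Φ, show k j - 1 - (k j - 1 - i) = i by omega] using this
    simpa using h0
  have hsurj : Function.Surjective L := fun w => by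
    let q : Fin d → F[X] := fun j => ∑ i : Fin (k j), C (w ⟨j, i⟩) * X ^ (k j - 1 - i.val)
    let z : ⨁ j : Fin d, F[X] ⧸ F[X] ∙ (X : F[X]) ^ k j :=
      ∑ j, DirectSum.lof F[X] (Fin d) (fun j => F[X] ⧸ F[X] ∙ (X : F[X]) ^ k j) j (Submodule.Quotient.mk (q j))
    refine ⟨(Module.AEval'.of T).symm (E.symm z), ?_⟩
    ext ⟨j, i⟩
    show Φ _ _ = _
    have hz : ∀ j, z j = Submodule.Quotient.mk (q j) := fun j => by
      simp only [z]
      rw [DFinsupp.finsetSum_apply, Finset.sum_eq_single j (fun l _ hl => ?_) (by simp), DirectSum.lof_eq_of,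
        DirectSum.of_eq_same]
      rw [DirectSum.lof_eq_of, DirectSum.of_eq_of_ne _ _ _ hl.symm]
    rw [key _ j (q j) (by rw [LinearEquiv.apply_symm_apply, LinearEquiv.apply_symm_apply, hz]) i]
    simp only [q, finsetSum_coeff, coeff_C_mul, coeff_X_pow]
    rw [Finset.sum_eq_single i (fun l _ hl => ?_) (by simp)]
    · simp
    · have : k j - 1 - i.val ≠ k j - 1 - l.val := fun h => hl (Fin.ext (by omega))
      simp [this]
  refine ⟨d, k, LinearEquiv.ofBijective L ⟨hinj, hsurj⟩, fun v => ?_⟩
  ext ⟨j, i⟩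
  show Φ (T v) _ = shift F k (Φ v) ⟨j, i⟩
  rw [key (T v) j (X * r v j) (by
    rw [← Module.AEval'.X_smul_of, map_smul, ← smul_eq_mul, Submodule.Quotient.mk_smul, hr]; rfl) i]
  show _ = if h : i.val + 1 < k j then Φ v ⟨j, ⟨i.val + 1, h⟩⟩ else 0
  split_ifs with h
  · rw [show k j - 1 - i.val = (k j - 1 - (i.val + 1)) + 1 by omega, coeff_X_mul]
  · rw [show k j - 1 - i.val = 0 by omega, coeff_X_mul_zero]

end Cfsg.Lib.Jordan
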