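import Mathlib

/-!
# Semisimple classes of general linear groups
-/

set_option autoImplicit false

open Polynomial

universe u v

namespace Cfsg.Agent.LinAlg.SSClass

variable {F : Type u} [Field F]

/-- a vector killed by `g` gives an embedding of the field defined by `g` -/
theorem exists_embedding {V : Type v} [AddCommGroup V] [Module F V] {x : Module.End F V} {g : F[X]}
    (hgm : g.Monic) (hgi : Irreducible g) {v : V} (hv0 : v ≠ 0) (hv : aeval x g v = 0) :
    ∃ ι : AdjoinRoot g →ₗ[F] V, Function.Injective ι ∧ ∀ k, x (ι k) = ι (AdjoinRoot.root g * k) := by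
  classical
  have : Fact (Irreducible g) := ⟨hgi⟩
  let ι : AdjoinRoot g →ₗ[F] V :=
    ((LinearMap.applyₗ v).comp (Polynomial.aeval x).toLinearMap).comp (AdjoinRoot.modByMonicHom hgm)
  have hι : ∀ h : F[X], ι (AdjoinRoot.mk g h) = aeval x h v := fun h => by
    show aeval x (AdjoinRoot.modByMonicHom hgm (AdjoinRoot.mk g h)) v = _
    conv_rhs => rw [← Polynomial.modByMonic_add_div h g]
    rw [AdjoinRoot.modByMonicHom_mk, map_add, mul_comm g, map_mul, LinearMap.add_apply, Module.End.mul_apply, hv,
      map_zero, add_zero]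
  refine ⟨ι, ?_, fun k => ?_⟩
  · rw [injective_iff_map_eq_zero]
    intro k hk
    by_contra hne
    obtain ⟨h, rfl⟩ := AdjoinRoot.mk_surjective k
    obtain ⟨j, hj⟩ := AdjoinRoot.mk_surjective (g := g) (AdjoinRoot.mk g h)⁻¹
    apply hv0
    have h1 : ι (AdjoinRoot.mk g (j * h)) = v := by
      rw [map_mul, hj, inv_mul_cancel₀ hne, ← map_one (AdjoinRoot.mk g), hι, map_one, Module.End.one_apply]
    rw [hι] at hk
    rw [hι, map_mul, Module.End.mul_apply, hk, map_zero] at h1
    exact h1.symm
  · induction k using AdjoinRoot.induction_on with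
    | ih h => rw [← AdjoinRoot.mk_X, ← map_mul, hι, hι, map_mul, aeval_X, Module.End.mul_apply]

/-- an irreducible factor of the minimal polynomial kills a nonzero vector -/
theorem exists_vec_of_dvd_minpoly {V : Type v} [AddCommGroup V] [Module F V] [FiniteDimensional F V]
    {x : Module.End F V} {g : F[X]} (hgm : g.Monic) (hgi : Irreducible g) (hgd : g ∣ minpoly F x) :
    ∃ v : V, v ≠ 0 ∧ aeval x g v = 0 := by
  by_contra hall
  push Not at hall
  obtain ⟨h, hh⟩ := hgd
  have h0 : aeval x h = 0 := LinearMap.ext fun v => by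
    by_contra hne
    refine hall _ hne ?_
    rw [← Module.End.mul_apply, ← map_mul, ← hh, minpoly.aeval]
    simp
  have hdvd := minpoly.dvd F x h0
  have hh0 : h ≠ 0 := fun e => minpoly.ne_zero (IsIntegral.of_finite F x) (by rw [hh, e, mul_zero])
  have := Polynomial.degree_le_of_dvd hdvd hh0
  rw [hh, Polynomial.degree_mul, Polynomial.degree_eq_natDegree hgm.ne_zero,
    Polynomial.degree_eq_natDegree hh0, ← Nat.cast_add, Nat.cast_le] at this
  have := hgi.natDegree_pos
  omega

theorem exists_vec_of_dvd_charpoly {V : Type v} [AddCommGroup V] [Module F V] [FiniteDimensional F V]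
    {x : Module.End F V} {g : F[X]} (hgi : Irreducible g) (hgd : g ∣ x.charpoly) :
    ∃ v : V, v ≠ 0 ∧ aeval x g v = 0 := by
  classical
  have : Fact (Irreducible g) := ⟨hgi⟩
  let b := Module.finBasis F V
  set M := LinearMap.toMatrix b b x with hM
  let φ : F →+* AdjoinRoot g := algebraMap F _
  set M' := φ.mapMatrix M
  have hroot : (M.charpoly.map φ).eval (AdjoinRoot.root g) = 0 := by
    obtain ⟨h, hh⟩ := hgd
    rw [LinearMap.charpoly_toMatrix, hh, Polynomial.map_mul, eval_mul, eval_map,
      show g.eval₂ φ (AdjoinRoot.root g) = 0 from AdjoinRoot.eval₂_root g, zero_mul]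
  rw [← Matrix.charpoly_map, Matrix.eval_charpoly] at hroot
  obtain ⟨Q, hQ⟩ := Polynomial.dvd_iff_isRoot.mpr
    (show (g.map φ).IsRoot (AdjoinRoot.root g) by rw [IsRoot, eval_map]; exact AdjoinRoot.eval₂_root g)
  have hdet : ((aeval M g : Matrix _ _ F)).det = 0 := by
    apply φ.injective
    rw [map_zero, RingHom.map_det]
    have h1 : φ.mapMatrix (aeval M g) = aeval M' (g.map φ) := by
      rw [aeval_map_algebraMap]
      exact (aeval_algHom_apply (Algebra.ofId F (AdjoinRoot g)).mapMatrix M g).symm
    rw [h1, hQ, map_mul, map_sub, aeval_X, aeval_C, Matrix.det_mul]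
    have : (M' - algebraMap (AdjoinRoot g) (Matrix _ _ (AdjoinRoot g)) (AdjoinRoot.root g)).det = 0 := by
      rw [show M' - algebraMap (AdjoinRoot g) (Matrix _ _ (AdjoinRoot g)) (AdjoinRoot.root g) =
        -(Matrix.scalar _ (AdjoinRoot.root g) - M.map φ) from (neg_sub _ _).symm, Matrix.det_neg, hroot, mul_zero]
    rw [this, zero_mul]
  have hd : LinearMap.det (aeval x g) = 0 := by
    rw [← LinearMap.det_toMatrix b]
    rw [← hdet, hM]
    congr 1
    exact (aeval_algHom_apply (LinearMap.toMatrixAlgEquiv b).toAlgHom x g).symm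
  obtain ⟨v, hv, hv0⟩ := Submodule.exists_mem_ne_zero_of_ne_bot (LinearMap.det_eq_zero_iff_ker_ne_bot.mp hd)
  exact ⟨v, hv0, hv⟩

/-- splitting off the field defined by `g` -/
theorem exists_split {V : Type v} [AddCommGroup V] [Module F V] [FiniteDimensional F V]
    {x : Module.End F V} (hx : x.IsSemisimple) {g : F[X]} (hgm : g.Monic) (hgi : Irreducible g)
    {v : V} (hv0 : v ≠ 0) (hv : aeval x g v = 0) :
    ∃ (q : Submodule F V) (y : Module.End F q) (e : (AdjoinRoot g × q) ≃ₗ[F] V),
      (∀ w : q, (y w : V) = x w) ∧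
      x = e.conj (LinearMap.prodMap (LinearMap.mulLeft F (AdjoinRoot.root g)) y) := by
  classical
  obtain ⟨ι, hinj, hιx⟩ := exists_embedding hgm hgi hv0 hv
  have hinv : LinearMap.range ι ∈ Module.End.invtSubmodule x := by
    rintro w ⟨k, rfl⟩
    exact ⟨_, (hιx k).symm⟩
  obtain ⟨q, hq, hpq⟩ := Module.End.isSemisimple_iff.mp hx _ hinv
  let Φ : (AdjoinRoot g × q) ≃ₗ[F] V :=
    ((LinearEquiv.ofInjective ι hinj).prodCongr (LinearEquiv.refl F q)).trans
      (Submodule.prodEquivOfIsCompl _ _ hpq)
  have hΦ : ∀ z, Φ z = ι z.1 + (z.2 : V) := fun z => rfl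
  refine ⟨q, x.restrict hq, Φ, fun w => rfl, LinearMap.ext fun w => ?_⟩
  obtain ⟨z, rfl⟩ := Φ.surjective w
  rw [LinearEquiv.conj_apply, LinearMap.comp_apply, LinearMap.comp_apply, LinearEquiv.coe_coe, LinearEquiv.coe_coe,
    LinearEquiv.symm_apply_apply]
  show x (Φ z) = Φ (AdjoinRoot.root g * z.1, x.restrict hq z.2)
  rw [hΦ, hΦ, map_add, hιx]
  rfl

theorem sqfree_restrict {V : Type v} [AddCommGroup V] [Module F V] {x : Module.End F V} {q : Submodule F V}
    {y : Module.End F q} (hy : ∀ w : q, (y w : V) = x w) (f : F[X]) (hf : aeval x f = 0) : aeval y f = 0 := by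
  have key : ∀ (f : F[X]) (w : q), ((aeval y f w : q) : V) = aeval x f w := by
    intro f
    induction f using Polynomial.induction_on' with
    | add a b ha hb => intro w; simp [map_add, ha w, hb w]
    | monomial k a =>
      intro w
      have hk : ∀ k : ℕ, (((y ^ k) w : q) : V) = (x ^ k) (w : V) := fun k => by
        induction k with
        | zero => simp
        | succ k ih => rw [pow_succ', pow_succ', Module.End.mul_apply, Module.End.mul_apply, hy, ih]
      simp [aeval_monomial, Module.algebraMap_end_eq_smul_id, hk]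
  refine LinearMap.ext fun w => Subtype.ext ?_
  rw [key, hf]
  simp

/-- semisimple operators with the same characteristic polynomial are conjugate -/
theorem exists_conj_of_charpoly_eq : ∀ (d : ℕ) {V W : Type v} [AddCommGroup V] [Module F V] [FiniteDimensional F V]
    [AddCommGroup W] [Module F W] [FiniteDimensional F W], Module.finrank F V = d →
    ∀ (x : Module.End F V) (y : Module.End F W) {f f' : F[X]}, Squarefree f → aeval x f = 0 →
    Squarefree f' → aeval y f' = 0 → x.charpoly = y.charpoly → ∃ e : V ≃ₗ[F] W, y = e.conj x := by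
  intro d
  induction d using Nat.strong_induction_on with
  | _ d ih =>
    intro V W _ _ _ _ _ _ hd x y f f' hf hxf hf' hyf hcp
    have hW : Module.finrank F W = d := by
      rw [← hd, ← x.charpoly_natDegree, ← y.charpoly_natDegree, hcp]
    rcases Nat.eq_zero_or_pos d with rfl | hpos
    · have : Subsingleton V := Module.finrank_zero_iff.mp hd
      have : Subsingleton W := Module.finrank_zero_iff.mp hW
      exact ⟨LinearEquiv.ofSubsingleton V W, LinearMap.ext fun w => Subsingleton.elim _ _⟩
    · classical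
      have : Nontrivial V := Module.nontrivial_of_finrank_pos (R := F) (hd ▸ hpos)
      obtain ⟨g, hgm, hgi, hgd⟩ := Polynomial.exists_monic_irreducible_factor (minpoly F x) (minpoly.not_isUnit F x)
      have hgc : g ∣ x.charpoly := hgd.trans (LinearMap.minpoly_dvd_charpoly x)
      obtain ⟨v, hv0, hv⟩ := exists_vec_of_dvd_minpoly hgm hgi hgd
      obtain ⟨w, hw0, hw⟩ := exists_vec_of_dvd_charpoly hgi (hcp ▸ hgc)
      obtain ⟨q, x', ex, hx', hxe⟩ :=
        exists_split (Module.End.isSemisimple_of_squarefree_aeval_eq_zero hf hxf) hgm hgi hv0 hv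
      obtain ⟨r, y', ey, hy', hye⟩ :=
        exists_split (Module.End.isSemisimple_of_squarefree_aeval_eq_zero hf' hyf) hgm hgi hw0 hw
      have : Module.Finite F (AdjoinRoot g) := (AdjoinRoot.powerBasis hgm.ne_zero).finite
      have hlt : Module.finrank F q < d := by
        have h := ex.finrank_eq
        rw [Module.finrank_prod, hd] at h
        have h1 : 0 < Module.finrank F (AdjoinRoot g) := by
          rw [(AdjoinRoot.powerBasis hgm.ne_zero).finrank, AdjoinRoot.powerBasis_dim]
          exact hgi.natDegree_pos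
        omega
      have hc' : x'.charpoly = y'.charpoly := by
        have h := hcp
        rw [hxe, hye, LinearEquiv.charpoly_conj, LinearEquiv.charpoly_conj, LinearMap.charpoly_prodMap,
          LinearMap.charpoly_prodMap] at h
        exact mul_left_cancel₀ (LinearMap.charpoly_monic _).ne_zero h
      obtain ⟨e', he'⟩ := ih _ hlt rfl x' y' hf (sqfree_restrict hx' f hxf) hf' (sqfree_restrict hy' f' hyf) hc'
      refine ⟨ex.symm.trans (((LinearEquiv.refl F (AdjoinRoot g)).prodCongr e').trans ey), LinearMap.ext fun w => ?_⟩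
      obtain ⟨⟨a, c⟩, rfl⟩ := ey.surjective w
      rw [hye, hxe]
      simp [LinearEquiv.conj_apply, he']

section Finite

variable [Finite F]

omit [Finite F] in
theorem exists_squarefree_killer {ι : Type v} [Fintype ι] [DecidableEq ι] (p : ℕ) [hp : Fact p.Prime] [CharP F p]
    {M : Matrix ι ι F} {N : ℕ} (hN : N.Coprime p) (hM : M ^ N = 1) :
    ∃ f : F[X], Squarefree f ∧ aeval (Matrix.toLinAlgEquiv' M) f = 0 := by
  refine ⟨X ^ N - 1, (X_pow_sub_one_separable_iff.mpr ?_).squarefree, ?_⟩
  · rw [Ne, CharP.cast_eq_zero_iff F p]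
    exact fun hd => hp.out.ne_one (Nat.eq_one_of_dvd_coprimes hN hd dvd_rfl)
  · rw [map_sub, map_pow, aeval_X, map_one, ← map_pow, hM, map_one, sub_self]

omit [Finite F] in
/-- elements of order prime to the characteristic are classified by their characteristic polynomial -/
theorem isConj_of_charpoly_eq {n : ℕ} (p : ℕ) [Fact p.Prime] [CharP F p] {x y : GL (Fin n) F}
    (hx : (orderOf x).Coprime p) (hy : (orderOf y).Coprime p)
    (h : (x : Matrix (Fin n) (Fin n) F).charpoly = (y : Matrix (Fin n) (Fin n) F).charpoly) : IsConj x y := by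
  obtain ⟨f, hf, hxf⟩ := exists_squarefree_killer p hx (M := (x : Matrix (Fin n) (Fin n) F))
    (by rw [← Units.val_pow_eq_pow_val, pow_orderOf_eq_one, Units.val_one])
  obtain ⟨f', hf', hyf⟩ := exists_squarefree_killer p hy (M := (y : Matrix (Fin n) (Fin n) F))
    (by rw [← Units.val_pow_eq_pow_val, pow_orderOf_eq_one, Units.val_one])
  obtain ⟨e, he⟩ := exists_conj_of_charpoly_eq (F := F) n (V := Fin n → F) (W := Fin n → F)
    (Module.finrank_fin_fun F) _ _ hf hxf hf' hyf (by
      rw [← Matrix.charpoly_toLin', ← Matrix.charpoly_toLin'] at h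
      exact h)
  rw [isConj_iff]
  let P : GL (Fin n) F :=
    Matrix.GeneralLinearGroup.toLin.symm (LinearMap.GeneralLinearGroup.ofLinearEquiv e)
  refine ⟨P, ?_⟩
  rw [mul_inv_eq_iff_eq_mul]
  refine Units.ext (Matrix.toLinAlgEquiv'.injective ?_)
  rw [Units.val_mul, Units.val_mul, map_mul, map_mul]
  have hP : Matrix.toLinAlgEquiv' (P : Matrix (Fin n) (Fin n) F) = (e : (Fin n → F) →ₗ[F] (Fin n → F)) :=
    congrArg (fun z : LinearMap.GeneralLinearGroup F (Fin n → F) => (z : Module.End F (Fin n → F)))
      (Matrix.GeneralLinearGroup.toLin.apply_symm_apply (LinearMap.GeneralLinearGroup.ofLinearEquiv e))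
  rw [hP, he]
  refine LinearMap.ext fun w => ?_
  simp [LinearEquiv.conj_apply]

/-- every admissible polynomial is the characteristic polynomial of a semisimple matrix -/
theorem exists_matrix (p : ℕ) [hp : Fact p.Prime] [CharP F p] : ∀ (n : ℕ) (f : F[X]), f.Monic → f.natDegree = n →
    f.coeff 0 ≠ 0 → ∃ (M : Matrix (Fin n) (Fin n) F) (N : ℕ), 0 < N ∧ N.Coprime p ∧ M ^ N = 1 ∧ M.charpoly = f := by
  intro n
  induction n using Nat.strong_induction_on with
  | _ n ih =>
    intro f hf hn h0
    classical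
    rcases Nat.eq_zero_or_pos n with rfl | hpos
    · exact ⟨1, 1, one_pos, Nat.coprime_one_left p, pow_one _, by
        rw [(Monic.natDegree_eq_zero hf).mp hn, Matrix.charpoly, Matrix.det_fin_zero]⟩
    · obtain ⟨g, hgm, hgi, h, hh⟩ := Polynomial.exists_monic_irreducible_factor f
        (fun hu => by rw [natDegree_eq_zero_of_isUnit hu] at hn; omega)
      have hhm : h.Monic := hgm.of_mul_monic_left (hh ▸ hf)
      have hdeg : g.natDegree + h.natDegree = n := by rw [← hn, hh, hgm.natDegree_mul hhm]
      have hh0 : h.coeff 0 ≠ 0 := fun e => h0 (by rw [hh, mul_coeff_zero, e, mul_zero])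
      have hg0 : g.coeff 0 ≠ 0 := fun e => h0 (by rw [hh, mul_coeff_zero, e, zero_mul])
      have := hgi.natDegree_pos
      obtain ⟨B, N₂, hN₂, hc₂, hB, hBc⟩ := ih h.natDegree (by omega) h hhm rfl hh0
      have : Fact (Irreducible g) := ⟨hgi⟩
      let pb := AdjoinRoot.powerBasis hgm.ne_zero
      have : Module.Finite F (AdjoinRoot g) := pb.finite
      have : Finite (AdjoinRoot g) := Module.finite_of_finite F
      have : Fintype (AdjoinRoot g) := Fintype.ofFinite _
      have hr0 : AdjoinRoot.root g ≠ 0 := fun e => hg0 (by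
        have h1 : g.eval₂ (AdjoinRoot.of g) (AdjoinRoot.root g) = 0 := AdjoinRoot.eval₂_root g
        rw [e, eval₂_at_zero] at h1
        exact (AdjoinRoot.of g).injective (by rw [h1, map_zero]))
      set A := Algebra.leftMulMatrix pb.basis (AdjoinRoot.root g) with hA
      set N₁ := Fintype.card (AdjoinRoot g) - 1
      have hAN : A ^ N₁ = 1 := by rw [hA, ← map_pow, FiniteField.pow_card_sub_one_eq_one _ hr0, map_one]
      have hN₁ : 0 < N₁ := by have := Fintype.one_lt_card (α := AdjoinRoot g); omega
      have hc₁ : N₁.Coprime p := by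
        have : CharP (AdjoinRoot g) p := charP_of_injective_algebraMap' F p
        obtain ⟨k, -, hk⟩ := FiniteField.card (AdjoinRoot g) p
        refine (Nat.Prime.coprime_iff_not_dvd hp.out).mpr (fun hd => ?_) |>.symm
        have h2 : p ∣ Fintype.card (AdjoinRoot g) := hk ▸ dvd_pow_self p k.ne_zero
        have h3 : p ∣ 1 := by
          have := Nat.dvd_sub h2 hd
          rwa [Nat.sub_sub_self Fintype.card_pos] at this
        exact hp.out.not_dvd_one h3
      have hdim : pb.dim = g.natDegree := AdjoinRoot.powerBasis_dim _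
      let e : Fin pb.dim ⊕ Fin h.natDegree ≃ Fin n := finSumFinEquiv.trans (finCongr (by omega))
      refine ⟨Matrix.reindexAlgEquiv F F e (Matrix.fromBlocks A 0 0 B), N₁ * N₂, Nat.mul_pos hN₁ hN₂,
        Nat.Coprime.mul_left hc₁ hc₂, ?_, ?_⟩
      · rw [← map_pow]
        have : ∀ k : ℕ, Matrix.fromBlocks A 0 0 B ^ k = Matrix.fromBlocks (A ^ k) 0 0 (B ^ k) := fun k => by
          induction k with
          | zero => simp [Matrix.fromBlocks_one]
          | succ k ihk => rw [pow_succ, ihk, Matrix.fromBlocks_multiply]; simp [pow_succ]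
        rw [this, pow_mul, hAN, one_pow, mul_comm N₁, pow_mul, hB, one_pow, Matrix.fromBlocks_one, map_one]
      · rw [Matrix.coe_reindexAlgEquiv, Matrix.charpoly_reindex, Matrix.charpoly_fromBlocks_zero₁₂, hBc, hA,
          show AdjoinRoot.root g = pb.gen from (AdjoinRoot.powerBasis_gen _).symm, charpoly_leftMulMatrix,
          AdjoinRoot.minpoly_powerBasis_gen_of_monic hgm, ← hh]

theorem exists_gl (p : ℕ) [Fact p.Prime] [CharP F p] {n : ℕ} {f : F[X]} (hf : f.Monic) (hn : f.natDegree = n)
    (h0 : f.coeff 0 ≠ 0) :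
    ∃ x : GL (Fin n) F, (orderOf x).Coprime p ∧ (x : Matrix (Fin n) (Fin n) F).charpoly = f := by
  obtain ⟨M, N, hN, hc, hM, hMc⟩ := exists_matrix p n f hf hn h0
  refine ⟨Units.ofPowEqOne M N hM hN.ne', Nat.Coprime.coprime_dvd_left (orderOf_dvd_of_pow_eq_one ?_) hc, ?_⟩
  · exact Units.pow_ofPowEqOne hM hN.ne'
  · exact hMc

omit [Finite F] in
theorem coeff_zero_ne {n : ℕ} (x : GL (Fin n) F) : (x : Matrix (Fin n) (Fin n) F).charpoly.coeff 0 ≠ 0 := fun e =>
  ((Matrix.isUnit_iff_isUnit_det _).mp x.isUnit).ne_zero (by rw [Matrix.det_eq_sign_charpoly_coeff, e, mul_zero])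

/-- monic polynomials of degree `n + 1` correspond to their lower coefficients -/
noncomputable def coeffEquiv (n : ℕ) :
    {p : F[X] // p.Monic ∧ p.natDegree = n} ≃ (Fin n → F) :=
  (Polynomial.monicEquivDegreeLT n).trans (Polynomial.degreeLTEquiv F n).toEquiv

omit [Finite F] in
theorem coeffEquiv_apply (n : ℕ) (p : {p : F[X] // p.Monic ∧ p.natDegree = n}) (i : Fin n) :
    coeffEquiv n p i = p.1.coeff i := by
  show p.1.eraseLead.coeff i = _
  rw [eraseLead_coeff_of_ne _ (by rw [p.2.2]; exact i.2.ne)]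

end Finite

end Cfsg.Agent.LinAlg.SSClass
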