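import Cfsg.Agent.Lib.LinAlg.JordanShift

/-! Unipotent classes of a general linear group and partitions. -/

set_option autoImplicit false

open Matrix

namespace Cfsg.Lib.Jordan

variable {F : Type*} [Field F] {n : ℕ}

/-- The parts of a partition, listed. -/
noncomputable def partsFn (μ : Nat.Partition n) : Fin μ.parts.toList.length → ℕ := fun j => μ.parts.toList.get j

theorem sum_partsFn (μ : Nat.Partition n) (f : ℕ → ℕ) : ∑ j, f (partsFn μ j) = (μ.parts.map f).sum := by
  conv_rhs => rw [← μ.parts.coe_toList, Multiset.map_coe, Multiset.sum_coe, ← List.ofFn_get μ.parts.toList,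
    List.map_ofFn, List.sum_ofFn]
  rfl

/-- The nilpotent matrix of a partition. -/
noncomputable def nilMat (F : Type*) [Field F] (μ : Nat.Partition n) : Matrix (Fin n) (Fin n) F :=
  LinearMap.toMatrix' ((LinearEquiv.funCongrLeft F F (Fintype.equivFinOfCardEq (α := Idx (partsFn μ)) (n := n) (by
    rw [Fintype.card_sigma]
    simp only [Fintype.card_fin]
    rw [show (∑ j, partsFn μ j) = (μ.parts.map id).sum from sum_partsFn μ id, Multiset.map_id, μ.parts_sum])).symm).conj
      (shift F (partsFn μ)))

/-- The kernel dimension of a power of a matrix. -/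
noncomputable def kerDim (N : Matrix (Fin n) (Fin n) F) (r : ℕ) : ℕ :=
  Module.finrank F (LinearMap.ker (Matrix.toLin' N ^ r))

theorem intertwine_pow {V W : Type*} [AddCommGroup V] [Module F V] [AddCommGroup W] [Module F W]
    {S : Module.End F V} {T : Module.End F W} (E : V ≃ₗ[F] W) (h : ∀ v, E (S v) = T (E v)) (r : ℕ) (v : V) :
    E ((S ^ r) v) = (T ^ r) (E v) := by
  induction r generalizing v with
  | zero => rfl
  | succ r ih => rw [pow_succ, pow_succ, Module.End.mul_apply, Module.End.mul_apply, ih, h]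

theorem finrank_ker_congr {V W : Type*} [AddCommGroup V] [Module F V] [AddCommGroup W] [Module F W]
    {S : Module.End F V} {T : Module.End F W} (E : V ≃ₗ[F] W) (h : ∀ v, E (S v) = T (E v)) (r : ℕ) :
    Module.finrank F (LinearMap.ker (S ^ r)) = Module.finrank F (LinearMap.ker (T ^ r)) := by
  rw [← LinearEquiv.finrank_map_eq E]
  suffices heq : Submodule.map (E : V →ₗ[F] W) (LinearMap.ker (S ^ r)) = LinearMap.ker (T ^ r) by rw [heq]
  ext w
  simp only [Submodule.mem_map, LinearMap.mem_ker]
  constructor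
  · rintro ⟨v, hv, rfl⟩
    show (T ^ r) (E v) = 0
    rw [← intertwine_pow E h, hv, map_zero]
  · intro hw
    refine ⟨E.symm w, E.injective ?_, E.apply_symm_apply w⟩
    rw [intertwine_pow E h, E.apply_symm_apply, hw, map_zero]

theorem exists_intertwiner (μ : Nat.Partition n) : ∃ E : (Idx (partsFn μ) → F) ≃ₗ[F] (Fin n → F),
    ∀ v, E (shift F (partsFn μ) v) = Matrix.toLin' (nilMat F μ) (E v) := by
  refine ⟨(LinearEquiv.funCongrLeft F F (Fintype.equivFinOfCardEq (α := Idx (partsFn μ)) (n := n) (by
    rw [Fintype.card_sigma]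
    simp only [Fintype.card_fin]
    rw [show (∑ j, partsFn μ j) = (μ.parts.map id).sum from sum_partsFn μ id, Multiset.map_id, μ.parts_sum])).symm),
    fun v => ?_⟩
  rw [nilMat, Matrix.toLin'_toMatrix', LinearEquiv.conj_apply_apply, LinearEquiv.symm_apply_apply]

theorem kerDim_nilMat (μ : Nat.Partition n) (r : ℕ) : kerDim (nilMat F μ) r = (μ.parts.map (min r)).sum := by
  obtain ⟨E, hE⟩ := exists_intertwiner (F := F) μ
  rw [kerDim, ← finrank_ker_congr E hE r, finrank_ker_shift]
  exact sum_partsFn μ (min r)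

theorem pow_eq_zero_iff_kerDim (N : Matrix (Fin n) (Fin n) F) (r : ℕ) : N ^ r = 0 ↔ kerDim N r = n := by
  rw [kerDim, ← Matrix.toLin'_pow]
  constructor
  · intro h; rw [h, map_zero, LinearMap.ker_zero, finrank_top, Module.finrank_fin_fun]
  · intro h
    have h' : LinearMap.ker (Matrix.toLin' (N ^ r)) = ⊤ :=
      Submodule.eq_top_of_finrank_eq (by rw [h, Module.finrank_fin_fun])
    exact (Matrix.toLin').map_eq_zero_iff.1 (LinearMap.ker_eq_top.1 h')

theorem sum_min_le (m : Multiset ℕ) (r : ℕ) : (m.map (min r)).sum ≤ m.sum := by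
  induction m using Multiset.induction with
  | empty => simp
  | cons a t ih => simp only [Multiset.map_cons, Multiset.sum_cons]; exact add_le_add (min_le_right r a) ih

theorem nilMat_pow_eq_zero (μ : Nat.Partition n) (r : ℕ) : nilMat F μ ^ r = 0 ↔ ∀ a ∈ μ.parts, a ≤ r := by
  rw [pow_eq_zero_iff_kerDim, kerDim_nilMat]
  have h : ∀ m : Multiset ℕ, (m.map (min r)).sum = m.sum ↔ ∀ a ∈ m, a ≤ r := by
    intro m
    induction m using Multiset.induction with
    | empty => simp
    | cons a t ih =>
      simp only [Multiset.map_cons, Multiset.sum_cons, Multiset.forall_mem_cons, ← ih]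
      have := sum_min_le t r
      constructor
      · intro h; omega
      · rintro ⟨h1, h2⟩; rw [h2, min_eq_right h1]
  rw [← h μ.parts, μ.parts_sum]

theorem count_from_mins (m : Multiset ℕ) (r : ℕ) :
    (m.map (min (r + 1))).sum = (m.map (min r)).sum + m.countP (fun a => r < a) := by
  induction m using Multiset.induction with
  | empty => simp
  | cons a t ih =>
    simp only [Multiset.map_cons, Multiset.sum_cons, Multiset.countP_cons, ih]
    split_ifs with h <;> omega

theorem count_succ (m : Multiset ℕ) (r : ℕ) :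
    m.countP (fun a => r < a) = m.count (r + 1) + m.countP (fun a => r + 1 < a) := by
  induction m using Multiset.induction with
  | empty => simp
  | cons a t ih =>
    simp only [Multiset.countP_cons, Multiset.count_cons, ih]
    split_ifs <;> omega

theorem partition_eq_of_kerDim {μ ν : Nat.Partition n}
    (h : ∀ r, (μ.parts.map (min r)).sum = (ν.parts.map (min r)).sum) : μ = ν := by
  have hc : ∀ r, μ.parts.countP (fun a => r < a) = ν.parts.countP (fun a => r < a) := fun r => by
    have h1 := count_from_mins μ.parts r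
    have h2 := count_from_mins ν.parts r
    rw [h, h] at h1
    omega
  refine Nat.Partition.ext (Multiset.ext.2 fun a => ?_)
  rcases Nat.eq_zero_or_pos a with rfl | ha
  · rw [Multiset.count_eq_zero.2 fun h => absurd (μ.parts_pos h) (lt_irrefl 0),
      Multiset.count_eq_zero.2 fun h => absurd (ν.parts_pos h) (lt_irrefl 0)]
  · obtain ⟨r, rfl⟩ : ∃ r, a = r + 1 := ⟨a - 1, by omega⟩
    have h1 := count_succ μ.parts r
    have h2 := count_succ ν.parts r
    rw [hc, hc] at h1
    omega

theorem nilMat_nilpotent (μ : Nat.Partition n) : nilMat F μ ^ n = 0 :=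
  (nilMat_pow_eq_zero μ n).2 fun a ha => by
    rw [← μ.parts_sum]; exact Multiset.le_sum_of_mem ha

/-- The unipotent element of a partition. -/
noncomputable def unip (F : Type*) [Field F] (μ : Nat.Partition n) : GL (Fin n) F :=
  (show IsUnit (1 + nilMat F μ) from IsNilpotent.isUnit_one_add ⟨n, nilMat_nilpotent μ⟩).unit

theorem unip_sub_one (μ : Nat.Partition n) : (unip F μ : Matrix (Fin n) (Fin n) F) - 1 = nilMat F μ := by
  simp [unip]

theorem isConj_iff_intertwine (g h : GL (Fin n) F) : IsConj g h ↔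
    ∃ E : (Fin n → F) ≃ₗ[F] (Fin n → F), ∀ v,
      E (Matrix.toLin' ((g : Matrix (Fin n) (Fin n) F) - 1) v) = Matrix.toLin' ((h : Matrix (Fin n) (Fin n) F) - 1) (E v) := by
  constructor
  · intro hc
    obtain ⟨c, hc⟩ := isConj_iff.1 hc
    have hM : (c : Matrix (Fin n) (Fin n) F) * ((g : Matrix (Fin n) (Fin n) F) - 1) =
        ((h : Matrix (Fin n) (Fin n) F) - 1) * (c : Matrix (Fin n) (Fin n) F) := by
      have h2 : (c : Matrix (Fin n) (Fin n) F) * g = h * c := by
        rw [← Units.val_mul, ← Units.val_mul, ← hc]; congr 1; group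
      rw [mul_sub, sub_mul, mul_one, one_mul, h2]
    refine ⟨Matrix.toLin'OfInv c.inv_val c.val_inv, fun v => ?_⟩
    show (c : Matrix (Fin n) (Fin n) F).mulVec _ = _
    rw [Matrix.toLin'_apply, Matrix.mulVec_mulVec, hM]
    show _ = (((h : Matrix (Fin n) (Fin n) F) - 1)).mulVec ((c : Matrix (Fin n) (Fin n) F).mulVec v)
    rw [Matrix.mulVec_mulVec]
  · rintro ⟨E, hE⟩
    set C := LinearMap.toMatrix' (E : (Fin n → F) →ₗ[F] (Fin n → F)) with hC
    set D := LinearMap.toMatrix' (E.symm : (Fin n → F) →ₗ[F] (Fin n → F)) with hD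
    have h1 : C * D = 1 := by rw [hC, hD, ← LinearMap.toMatrix'_comp]; simp
    have h2 : D * C = 1 := by rw [hC, hD, ← LinearMap.toMatrix'_comp]; simp
    refine isConj_iff.2 ⟨⟨C, D, h1, h2⟩, ?_⟩
    have hM : C * ((g : Matrix (Fin n) (Fin n) F) - 1) = ((h : Matrix (Fin n) (Fin n) F) - 1) * C := by
      apply Matrix.toLin'.injective
      rw [Matrix.toLin'_mul, Matrix.toLin'_mul, hC, Matrix.toLin'_toMatrix']
      exact LinearMap.ext hE
    rw [mul_sub, sub_mul, mul_one, one_mul, sub_left_inj] at hM
    rw [mul_inv_eq_iff_eq_mul]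
    exact Units.ext hM

theorem unip_injective {μ ν : Nat.Partition n} (h : IsConj (unip F μ) (unip F ν)) : μ = ν := by
  obtain ⟨E, hE⟩ := (isConj_iff_intertwine _ _).1 h
  rw [unip_sub_one, unip_sub_one] at hE
  exact partition_eq_of_kerDim fun r => by
    rw [← kerDim_nilMat (F := F), ← kerDim_nilMat (F := F)]
    exact finrank_ker_congr E hE r

theorem exists_unip (g : GL (Fin n) F) {N : ℕ} (hg : ((g : Matrix (Fin n) (Fin n) F) - 1) ^ N = 0) :
    ∃ μ : Nat.Partition n, IsConj g (unip F μ) := by
  classical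
  set T := Matrix.toLin' ((g : Matrix (Fin n) (Fin n) F) - 1)
  obtain ⟨d, k, E, hE⟩ := exists_shift T (N := N) (by rw [← Matrix.toLin'_pow, hg, map_zero])
  have hn : ∑ j, k j = n := by
    have := E.finrank_eq
    rw [Module.finrank_fin_fun, Module.finrank_pi, Fintype.card_sigma] at this
    simpa using this.symm
  let μ : Nat.Partition n := Nat.Partition.ofSums n (Multiset.map k Finset.univ.val) hn
  have hμ : ∀ r, (μ.parts.map (min r)).sum = ∑ j, min r (k j) := by
    intro r
    show (((Multiset.map k Finset.univ.val).filter (· ≠ 0)).map (min r)).sum = _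
    have : ∀ m : Multiset ℕ, ((m.filter (· ≠ 0)).map (min r)).sum = (m.map (min r)).sum := fun m => by
      induction m using Multiset.induction with
      | empty => simp
      | cons a t ih => rcases eq_or_ne a 0 with rfl | h <;> simp_all
    rw [this, Multiset.map_map]
    rfl
  refine ⟨μ, (isConj_iff_intertwine _ _).2 ?_⟩
  rw [unip_sub_one]
  obtain ⟨E', hE'⟩ := exists_intertwiner (F := F) μ
  -- compare the two block shifts
  have hcount : ∀ a, 0 < a → (Multiset.map k Finset.univ.val).count a =
      (Multiset.map (partsFn μ) Finset.univ.val).count a := by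
    intro a ha
    have h2 : Multiset.map (partsFn μ) Finset.univ.val = μ.parts := by
      rw [show (Finset.univ : Finset (Fin μ.parts.toList.length)).val = ↑(List.finRange μ.parts.toList.length) from rfl,
        Multiset.map_coe]
      conv_rhs => rw [← μ.parts.coe_toList, ← List.ofFn_get μ.parts.toList, List.ofFn_eq_map]
      rfl
    rw [h2]
    show _ = ((Multiset.map k Finset.univ.val).filter (· ≠ 0)).count a
    rw [Multiset.count_filter_of_pos (by omega)]
  have hfib : ∀ a : {a : ℕ // 0 < a}, Nat.card {j : Fin d // k j = a.1} =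
      Nat.card {j : Fin μ.parts.toList.length // partsFn μ j = a.1} := by
    intro a
    have h := hcount a.1 a.2
    rw [Multiset.count_map, Multiset.count_map] at h
    simp only [Nat.card_eq_fintype_card, Fintype.card_subtype]
    simpa [Finset.card_def, Finset.filter_val, eq_comm] using h
  let blocks : {j : Fin d // 0 < k j} ≃ {j : Fin μ.parts.toList.length // 0 < partsFn μ j} :=
    Equiv.ofFiberEquiv (f := fun j => (⟨k j.1, j.2⟩ : {a : ℕ // 0 < a}))
      (g := fun j => (⟨partsFn μ j.1, j.2⟩ : {a : ℕ // 0 < a})) fun a =>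
      (((Equiv.subtypeEquivRight fun j => Subtype.ext_iff).trans
        (Equiv.subtypeSubtypeEquivSubtype (q := fun j => k j = a.1) fun {j} h => h ▸ a.2)).trans
        (Classical.choice (Finite.card_eq.1 (hfib a)))).trans
        ((Equiv.subtypeEquivRight fun j => Subtype.ext_iff).trans
          (Equiv.subtypeSubtypeEquivSubtype (q := fun j => partsFn μ j = a.1) fun {j} h => h ▸ a.2)).symm
  have hsize : ∀ j, partsFn μ (blocks j).1 = k j.1 := fun j =>
    congrArg Subtype.val (Equiv.ofFiberEquiv_map (f := fun j : {j : Fin d // 0 < k j} => (⟨k j.1, j.2⟩ : {a : ℕ // 0 < a}))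
      (g := fun j : {j : Fin μ.parts.toList.length // 0 < partsFn μ j} => (⟨partsFn μ j.1, j.2⟩ : {a : ℕ // 0 < a})) _ j)
  let toI : Idx k → Idx (partsFn μ) := fun b =>
    ⟨(blocks ⟨b.1, Nat.zero_lt_of_lt b.2.isLt⟩).1, ⟨b.2.val, by rw [hsize]; exact b.2.isLt⟩⟩
  have tinj : Function.Injective toI := by
    rintro ⟨j, i⟩ ⟨j', i'⟩ h
    obtain ⟨h1, h2⟩ := Sigma.mk.inj_iff.1 h
    obtain rfl : j = j' := congrArg Subtype.val (blocks.injective (Subtype.ext h1))
    simp only [heq_eq_eq, Fin.mk.injEq] at h2
    rw [Fin.ext h2]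
  have tbij : Function.Bijective toI := by
    refine (Fintype.bijective_iff_injective_and_card _).2 ⟨tinj, ?_⟩
    rw [Fintype.card_sigma, Fintype.card_sigma]
    simp only [Fintype.card_fin]
    rw [hn, show (∑ j, partsFn μ j) = (μ.parts.map id).sum from sum_partsFn μ id, Multiset.map_id, μ.parts_sum]
  let R : (Idx (partsFn μ) → F) ≃ₗ[F] (Idx k → F) := LinearEquiv.funCongrLeft F F (Equiv.ofBijective toI tbij)
  refine ⟨E.trans (R.symm.trans E'), fun v => ?_⟩
  show E' (R.symm (E (T v))) = _
  rw [hE]
  have hR : ∀ w, R (shift F (partsFn μ) w) = shift F k (R w) := by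
    intro w
    ext ⟨j, i⟩
    have hlen : partsFn μ (blocks ⟨j, Nat.zero_lt_of_lt i.isLt⟩).1 = k j := hsize _
    show (if h : i.val + 1 < partsFn μ (blocks ⟨j, _⟩).1 then _ else 0) = if h : i.val + 1 < k j then _ else 0
    by_cases h : i.val + 1 < k j
    · rw [dif_pos h, dif_pos (by omega)]; rfl
    · rw [dif_neg h, dif_neg (by omega)]
  have : R.symm (shift F k (E v)) = shift F (partsFn μ) (R.symm (E v)) := by
    apply R.injective
    rw [hR, R.apply_symm_apply, R.apply_symm_apply]
  rw [this, hE']
  rfl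

theorem order_pow_iff (p : ℕ) [Fact p.Prime] [CharP F p] [Nonempty (Fin n)] (g : GL (Fin n) F) (k : ℕ) :
    g ^ (p ^ k) = 1 ↔ ((g : Matrix (Fin n) (Fin n) F) - 1) ^ (p ^ k) = 0 := by
  rw [sub_pow_char_pow_of_commute p k (Commute.one_right _), one_pow, sub_eq_zero, ← Units.val_pow_eq_pow_val,
    Units.val_eq_one]

end Cfsg.Lib.Jordan
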